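import Cfsg.Agent.S3508

/-!
# Affine maps with two cycles: basic facts (helper549, for S3507)
-/

set_option autoImplicit false
set_option linter.unusedSectionVars false

namespace Cfsg.Agent.H549.TwoCyc

open MulAction

universe u

variable {V : Type u} [AddCommGroup V] [Finite V]

/-- translations -/
def tr (V : Type u) [AddCommGroup V] : Multiplicative V →* Equiv.Perm V where
  toFun v := Equiv.addLeft v.toAdd
  map_one' := by ext x; simp
  map_mul' a b := by ext x; simp

theorem tr_apply (v : Multiplicative V) (x : V) : tr V v x = v.toAdd + x := rfl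

/-- the order of an affine `p`-element -/
theorem aff_order {p m r : ℕ} (hp : p.Prime) (hexp : ∀ v : V, p • v = 0) (hcard : Nat.card V = p ^ m)
    (T : Equiv.Perm V) (A : V → V) (hA : ∀ x y, A (x + y) = A x + A y) (b : V) (hT : ∀ v, T v = A v + b) (hr : 1 ≤ r)
    (ho : orderOf T = p ^ r) : p ^ (r - 1) ≤ m ∧ (r = m → m ≤ 2 ∧ (2 < p → m ≤ 1)) := by
  classical
  have := Fintype.ofFinite V
  have hN : ∀ n ∈ (tr V).range, T * n * T⁻¹ ∈ (tr V).range := by
    rintro _ ⟨v, rfl⟩
    refine ⟨Multiplicative.ofAdd (A v.toAdd), ?_⟩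
    ext x
    obtain ⟨y, rfl⟩ := T.surjective x
    have h1 : (T * (tr V) v * T⁻¹) (T y) = T ((tr V) v y) := by simp
    rw [h1, tr_apply, tr_apply, hT, hT, hA]
    exact (add_assoc _ _ _).symm
  have hTN : T ∈ Subgroup.normalizer ((tr V).range : Set (Equiv.Perm V)) := by
    rw [Subgroup.mem_normalizer_iff]
    intro h
    refine ⟨hN h, fun hh => ?_⟩
    -- powers
    have hpow : ∀ k : ℕ, ∀ n ∈ (tr V).range, T ^ k * n * (T ^ k)⁻¹ ∈ (tr V).range := by
      intro k
      induction k with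
      | zero => intro n hn; simpa using hn
      | succ k ih =>
        intro n hn
        have h1 := hN _ (ih n hn)
        have h2 : T ^ (k + 1) * n * (T ^ (k + 1))⁻¹ = T * (T ^ k * n * (T ^ k)⁻¹) * T⁻¹ := by
          rw [pow_succ']; group
        rwa [h2]
    have h3 := hpow (orderOf T - 1) _ hh
    have h4 : T ^ (orderOf T - 1) * T = 1 := by
      rw [← pow_succ, Nat.sub_add_cancel (orderOf_pos T), pow_orderOf_eq_one]
    have h5 : T ^ (orderOf T - 1) = T⁻¹ := eq_inv_of_mul_eq_one_left h4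
    rw [h5] at h3
    have h6 : T⁻¹ * (T * h * T⁻¹) * T⁻¹⁻¹ = h := by group
    rwa [h6] at h3
  let G' : Subgroup (Equiv.Perm V) := Subgroup.normalizer ((tr V).range : Set (Equiv.Perm V))
  let N : Subgroup ↥G' := (tr V).range.subgroupOf G'
  have hle : (tr V).range ≤ G' := Subgroup.le_normalizer
  have hNn : N.Normal := Subgroup.normal_in_normalizer
  have hfix : ∀ n ∈ N, ∃ v : V, ∀ x : V, n • x = v + x := by
    rintro ⟨n, hn⟩ ⟨v, hv⟩
    refine ⟨v.toAdd, fun x => ?_⟩
    change n x = _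
    have h1 : n = tr V v := hv.symm
    rw [h1]
    rfl
  refine S3508.result (G := ↥G') (Ω := V) p m hp ?_ N ?_ ?_ ?_ ?_ ⟨T, hTN⟩ r hr ?_
  · rw [← Nat.card_eq_fintype_card, hcard]
  · refine ⟨⟨fun a c => ?_⟩⟩
    obtain ⟨v, hv⟩ := hfix a.1 a.2
    obtain ⟨w, hw⟩ := hfix c.1 c.2
    apply Subtype.ext
    apply Subtype.ext
    ext x
    change a.1 • (c.1 • x) = c.1 • (a.1 • x)
    rw [hv, hw, hw, hv]
    exact add_left_comm _ _ _
  · intro n hn
    obtain ⟨v, hv⟩ := hfix n hn
    apply Subtype.ext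
    ext x
    have h1 : ∀ k : ℕ, (n ^ k) • x = k • v + x := by
      intro k
      induction k with
      | zero => simp
      | succ k ih => rw [pow_succ', mul_smul, ih, hv, succ_nsmul, ← add_assoc, add_comm v]
    change (n ^ p) • x = x
    rw [h1, hexp, zero_add]
  · refine ⟨fun x y => ?_⟩
    refine ⟨⟨⟨tr V (Multiplicative.ofAdd (y - x)), hle ⟨_, rfl⟩⟩, ⟨_, rfl⟩⟩, ?_⟩
    change (y - x) + x = y
    exact sub_add_cancel y x
  · intro x
    rw [Subgroup.eq_bot_iff_forall]
    rintro n hn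
    obtain ⟨v, hv⟩ := hfix n.1 n.2
    have h1 : n.1 • x = x := hn
    rw [hv] at h1
    have h2 : v = 0 := by simpa using h1
    apply Subtype.ext
    apply Subtype.ext
    ext y
    change n.1 • y = y
    rw [hv, h2, zero_add]
  · have h1 := Subgroup.orderOf_mk T hTN
    rw [← ho]
    exact h1

section

variable {p : ℕ} (hp : p.Prime) (hexp : ∀ v : V, p • v = 0)

include hp hexp

/-- numbers prime to `p` are invertible on `V` -/
theorem exists_inv {m : ℕ} (hm : ¬ p ∣ m) : ∃ a : ℤ, ∀ v : V, (a * (m : ℤ)) • v = v := by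
  have h1 : Nat.Coprime m p := ((Nat.Prime.coprime_iff_not_dvd hp).2 hm).symm
  have h2 := Nat.gcd_eq_gcd_ab m p
  rw [h1.gcd_eq_one] at h2
  refine ⟨Nat.gcdA m p, fun v => ?_⟩
  have h3 : (Nat.gcdA m p * (m : ℤ)) = 1 - Nat.gcdB m p * (p : ℤ) := by
    push_cast at h2
    linarith
  rw [h3, sub_smul, one_smul, mul_smul, natCast_zsmul, hexp, smul_zero, sub_zero]

/-- an affine map of order prime to `p` has a fixed point -/
theorem exists_fix (S : Equiv.Perm V) (A : V →+ V) (β : V) (hS : ∀ v, S v = A v + β) {m : ℕ} (hm : S ^ m = 1)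
    (hpm : ¬ p ∣ m) : ∃ c, S c = c := by
  obtain ⟨a, ha⟩ := exists_inv hp hexp hpm
  set x : ℕ → V := fun i => (S ^ i) 0 with hx
  set t : V := ∑ i ∈ Finset.range m, x i with ht
  refine ⟨a • t, ?_⟩
  have h1 : A t = t - m • β := by
    rw [ht, map_sum]
    have h2 : ∀ i ∈ Finset.range m, A (x i) = x (i + 1) - β := by
      intro i _
      have h3 : x (i + 1) = S (x i) := by
        change (S ^ (i + 1)) 0 = S ((S ^ i) 0)
        rw [pow_succ', Equiv.Perm.mul_apply]
      rw [h3, hS, add_sub_cancel_right]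
    rw [Finset.sum_congr rfl h2, Finset.sum_sub_distrib, Finset.sum_const, Finset.card_range]
    congr 1
    have h4 := Finset.sum_range_succ' x m
    have h5 := Finset.sum_range_succ x m
    have h6 : x m = x 0 := by
      change (S ^ m) 0 = (S ^ 0) 0
      rw [hm, pow_zero]
    rw [h5, h6] at h4
    exact (add_right_cancel h4).symm
  rw [hS, map_zsmul, h1, smul_sub, ← natCast_zsmul, ← mul_smul, ha]
  abel

end

end Cfsg.Agent.H549.TwoCyc
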