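import Cfsg.Agent.H549.TwoCyc.AffCore

/-!
# Affine groups with an element with two cycles: the case of a `p`-element (helper549, for S3507)
-/

set_option autoImplicit false
set_option linter.unusedSectionVars false

namespace Cfsg.Agent.H549.TwoCyc

open MulAction

universe u v

/-- number theory -/
theorem pow_add_pow {p : ℕ} (hp : p.Prime) {i j d : ℕ} (h : p ^ i + p ^ j = p ^ d) : p = 2 ∧ j = i ∧ d = i + 1 := by
  wlog hij : i ≤ j generalizing i j
  · obtain ⟨h1, h2, h3⟩ := this (by rw [add_comm, h]) (by omega)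
    exact ⟨h1, h2.symm, by omega⟩
  have hp1 : 1 < p := hp.one_lt
  have hid : i < d := by
    rw [← Nat.pow_lt_pow_iff_right hp1, ← h]
    have := Nat.pow_pos (n := j) hp.pos
    omega
  obtain ⟨k, rfl⟩ := Nat.exists_eq_add_of_le hij
  obtain ⟨e, rfl⟩ := Nat.exists_eq_add_of_lt hid
  have h1 : p ^ i * (1 + p ^ k) = p ^ i * (p * p ^ e) := by
    rw [mul_add, mul_one, ← pow_add, h]
    ring
  have h2 := Nat.eq_of_mul_eq_mul_left (Nat.pow_pos hp.pos) h1
  have hk : k = 0 := by
    by_contra hk
    obtain ⟨k', rfl⟩ := Nat.exists_eq_succ_of_ne_zero hk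
    have h3 : p ∣ 1 + p ^ (k' + 1) := ⟨_, h2⟩
    rw [Nat.dvd_add_left (dvd_pow_self p (by omega))] at h3
    exact hp.one_lt.ne' (Nat.dvd_one.1 h3)
  subst hk
  rw [pow_zero] at h2
  have h3 : p = 2 := (Nat.prime_dvd_prime_iff_eq hp Nat.prime_two).1 ⟨_, h2⟩
  subst h3
  have he : e = 0 := by
    by_contra he
    obtain ⟨e', rfl⟩ := Nat.exists_eq_succ_of_ne_zero he
    have h4 : 2 ≤ 2 ^ (e' + 1) := by
      rw [pow_succ]
      have := Nat.pow_pos (n := e') Nat.two_pos
      omega
    omega
  exact ⟨rfl, by omega, by omega⟩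

/-- the size of a cycle -/
theorem card_cycle {α : Type*} [Finite α] (T : Equiv.Perm α) (x : α) :
    Nat.card {v // T.SameCycle x v} = Function.minimalPeriod T x := by
  classical
  have := Fintype.ofFinite α
  have h1 := MulAction.minimalPeriod_eq_card (a := T) (b := x)
  have h2 : (fun y => T • y) = (T : α → α) := rfl
  rw [h2] at h1
  rw [h1, ← Nat.card_eq_fintype_card]
  refine Nat.card_congr (Equiv.subtypeEquivRight fun v => ?_)
  constructor
  · rintro ⟨k, hk⟩
    exact ⟨⟨T ^ k, ⟨k, rfl⟩⟩, hk⟩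
  · rintro ⟨⟨t, ⟨k, rfl⟩⟩, hk⟩
    exact ⟨k, hk⟩

variable {V : Type u} [AddCommGroup V] [Finite V] {G : Type v} [Group G] [DistribMulAction G V]

theorem smul_mem_orb {x v : V} (h : G) (hv : v ∈ orbit G x) : h • v ∈ orbit G x := by
  obtain ⟨k, rfl⟩ := hv
  exact ⟨h * k, mul_smul h k x⟩

/-- orbits are big -/
theorem card_orbit_ge (irr : Irr G V) (hexp : ∀ v : V, 2 • v = 0) {d : ℕ} (hd : 2 ≤ d) (hcard : Nat.card V = 2 ^ d)
    {x : V} (hx : x ≠ 0) : d + 1 ≤ Nat.card (orbit G x) := by
  classical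
  have := Fintype.ofFinite V
  let mod : Module (ZMod 2) V := AddCommGroup.zmodModule hexp
  set X : Finset V := (orbit G x).toFinset with hX
  have hXm : ∀ v, v ∈ X ↔ v ∈ orbit G x := fun v => Set.mem_toFinset
  have hxX : x ∈ X := (hXm x).2 (mem_orbit_self x)
  have hXc : Nat.card (orbit G x) = X.card := by
    rw [hX, Set.toFinset_card, Nat.card_eq_fintype_card]
  set z : V := ∑ v ∈ X, v with hz
  have hfix : ∀ h : G, h • z = z := by
    intro h
    rw [hz, Finset.smul_sum]
    refine Finset.sum_bij (fun v _ => h • v) ?_ ?_ ?_ ?_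
    · intro v hv
      rw [hXm] at hv ⊢
      exact smul_mem_orb _ hv
    · intro v _ w _ hvw
      exact smul_left_cancel h hvw
    · intro v hv
      refine ⟨h⁻¹ • v, ?_, smul_inv_smul h v⟩
      rw [hXm] at hv ⊢
      exact smul_mem_orb _ hv
    · intro v _
      rfl
  have hcard4 : 4 ≤ Nat.card V := by
    rw [hcard]
    calc 4 = 2 ^ 2 := by norm_num
      _ ≤ 2 ^ d := Nat.pow_le_pow_right (by norm_num) hd
  have hz0 : z = 0 := by
    rcases irr (AddSubgroup.zmultiples z) (fun h v hv => by
      obtain ⟨k, rfl⟩ := AddSubgroup.mem_zmultiples_iff.1 hv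
      rw [AddSubgroup.mem_zmultiples_iff]
      refine ⟨k, ?_⟩
      have h1 := map_zsmul (DistribSMul.toAddMonoidHom V h) k z
      change h • (k • z) = k • (h • z) at h1
      rw [h1, hfix]) with h1 | h1
    · exact AddSubgroup.zmultiples_eq_bot.1 h1
    · exfalso
      have h2 : Nat.card (AddSubgroup.zmultiples z) = Nat.card V := by
        rw [h1]
        exact Nat.card_congr AddSubgroup.topEquiv.toEquiv
      rw [Nat.card_zmultiples] at h2
      have h3 := Nat.le_of_dvd (by norm_num) (addOrderOf_dvd_of_nsmul_eq_zero (hexp z))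
      omega
  set Y := X.erase x with hY
  have hYc : Y.card + 1 = X.card := Finset.card_erase_add_one hxX
  have hspanY : Submodule.span (ZMod 2) (Y : Set V) = ⊤ := by
    have hxs : x ∈ Submodule.span (ZMod 2) (Y : Set V) := by
      have h1 : ∑ v ∈ Y, v = -x := by
        have h2 := Finset.sum_erase_add X (fun v => v) hxX
        rw [← hz, hz0] at h2
        exact eq_neg_of_add_eq_zero_left h2
      have h2 : -x ∈ Submodule.span (ZMod 2) (Y : Set V) := by
        rw [← h1]
        exact Submodule.sum_mem _ fun v hv => Submodule.subset_span hv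
      simpa using Submodule.neg_mem _ h2
    have hXs : ∀ v ∈ orbit G x, v ∈ Submodule.span (ZMod 2) (Y : Set V) := by
      intro v hv
      by_cases hvx : v = x
      · rw [hvx]; exact hxs
      · exact Submodule.subset_span (Finset.mem_coe.2 (Finset.mem_erase.2 ⟨hvx, (hXm v).2 hv⟩))
    have hcl : AddSubgroup.closure (orbit G x) = ⊤ := by
      rcases irr (AddSubgroup.closure (orbit G x)) (fun h v hv => by
        induction hv using AddSubgroup.closure_induction with
        | mem v hv => exact AddSubgroup.subset_closure (smul_mem_orb _ hv)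
        | zero => rw [smul_zero]; exact zero_mem _
        | add x y _ _ hx hy => rw [smul_add]; exact add_mem hx hy
        | neg x _ hx => rw [smul_neg]; exact neg_mem hx) with h1 | h1
      · exfalso
        apply hx
        have h2 : x ∈ AddSubgroup.closure (orbit G x) := AddSubgroup.subset_closure (mem_orbit_self x)
        rwa [h1, AddSubgroup.mem_bot] at h2
      · exact h1
    rw [eq_top_iff]
    intro v _
    have h1 : AddSubgroup.closure (orbit G x) ≤ (Submodule.span (ZMod 2) (Y : Set V)).toAddSubgroup := by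
      rw [AddSubgroup.closure_le]
      exact hXs
    exact h1 (hcl ▸ AddSubgroup.mem_top v)
  have h1 := finrank_span_finset_le_card (R := ZMod 2) Y
  rw [Set.finrank, hspanY, finrank_top] at h1
  have h2 := Module.natCard_eq_pow_finrank (K := ZMod 2) (V := V)
  rw [hcard, Nat.card_zmod] at h2
  have h3 := Nat.pow_right_injective le_rfl h2
  omega

/-- a `2`-element of `GL₄(2)` with at least three fixed vectors -/
theorem cube_zero (hexp : ∀ v : V, 2 • v = 0) (hcard : Nat.card V = 2 ^ 4) {g : G} {E : ℕ}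
    (hgE : ∀ v : V, g ^ 2 ^ E • v = v) {x y z : V} (hx : g • x = x) (hy : g • y = y) (hz : g • z = z)
    (hx0 : x ≠ 0) (hy0 : y ≠ 0) (hz0 : z ≠ 0) (hxy : x ≠ y) (hxz : x ≠ z) (hyz : y ≠ z) (v : V) :
    g • g • g • v + g • g • v + g • v + v = 0 := by
  classical
  have := Fintype.ofFinite V
  let mod : Module (ZMod 2) V := AddCommGroup.zmodModule hexp
  let A : Module.End (ZMod 2) V := (DistribSMul.toAddMonoidHom V g).toZModLinearMap 2
  have hA : ∀ v, A v = g • v := fun v => rfl
  have hAk : ∀ (k : ℕ) (v : V), (A ^ k) v = g ^ k • v := by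
    intro k
    induction k with
    | zero => intro v; simp
    | succ k ih => intro v; rw [pow_succ', Module.End.mul_apply, ih, hA, pow_succ', mul_smul]
  let D : Module.End (ZMod 2) V := A + 1
  have hD : ∀ v, D v = g • v + v := fun v => rfl
  have hself : ∀ v : V, v + v = 0 := fun v => by rw [← two_nsmul]; exact hexp v
  have hDk : ∀ k : ℕ, D ^ 2 ^ k = A ^ 2 ^ k + 1 := by
    intro k
    induction k with
    | zero => rw [pow_zero, pow_one, pow_one]
    | succ k ih =>
      rw [pow_succ, pow_mul, ih, pow_mul]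
      ext v
      rw [pow_two, pow_two, Module.End.mul_apply]
      simp only [LinearMap.add_apply, Module.End.mul_apply, Module.End.one_apply, map_add]
      have h1 := hself ((A ^ 2 ^ k) v)
      calc (A ^ 2 ^ k) ((A ^ 2 ^ k) v) + (A ^ 2 ^ k) v + ((A ^ 2 ^ k) v + v)
          = (A ^ 2 ^ k) ((A ^ 2 ^ k) v) + ((A ^ 2 ^ k) v + (A ^ 2 ^ k) v) + v := by abel
        _ = (A ^ 2 ^ k) ((A ^ 2 ^ k) v) + v := by rw [h1, add_zero]
  have hDE : D ^ 2 ^ E = 0 := by
    rw [hDk]
    ext v
    simp only [LinearMap.add_apply, Module.End.one_apply, LinearMap.zero_apply]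
    rw [hAk, hgE, hself]
  -- the rank
  have hfr : Module.finrank (ZMod 2) V = 4 := by
    have h2 := Module.natCard_eq_pow_finrank (K := ZMod 2) (V := V)
    rw [hcard, Nat.card_zmod] at h2
    exact (Nat.pow_right_injective le_rfl h2).symm
  have hker : 2 ≤ Module.finrank (ZMod 2) (LinearMap.ker D) := by
    have h2 := Module.natCard_eq_pow_finrank (K := ZMod 2) (V := LinearMap.ker D)
    rw [Nat.card_zmod] at h2
    have hm : ∀ v : V, g • v = v → v ∈ LinearMap.ker D := by
      intro v hv
      rw [LinearMap.mem_ker, hD, hv, hself]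
    have h3 : 4 ≤ Nat.card (LinearMap.ker D) := by
      rw [Nat.card_eq_fintype_card]
      let t : Finset (LinearMap.ker D) := {⟨0, zero_mem _⟩, ⟨x, hm x hx⟩, ⟨y, hm y hy⟩, ⟨z, hm z hz⟩}
      have ht : t.card = 4 := by
        rw [Finset.card_insert_of_notMem, Finset.card_insert_of_notMem, Finset.card_insert_of_notMem,
          Finset.card_singleton]
        · simp only [Finset.mem_singleton, Subtype.mk.injEq]; exact hyz
        · simp only [Finset.mem_insert, Finset.mem_singleton, Subtype.mk.injEq, not_or]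
          exact ⟨hxy, hxz⟩
        · simp only [Finset.mem_insert, Finset.mem_singleton, Subtype.mk.injEq, not_or]
          exact ⟨hx0.symm, hy0.symm, hz0.symm⟩
      have h9 := Finset.card_le_univ t
      omega
    by_contra hcon
    have h4 : 2 ^ Module.finrank (ZMod 2) (LinearMap.ker D) ≤ 2 ^ 1 := Nat.pow_le_pow_right (by norm_num) (by omega)
    omega
  have hrange : Module.finrank (ZMod 2) (LinearMap.range D) ≤ 2 := by
    have h1 := LinearMap.finrank_range_add_finrank_ker D
    omega
  -- restriction to the range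
  have hinv : ∀ v ∈ LinearMap.range D, D v ∈ LinearMap.range D := fun v _ => LinearMap.mem_range_self D v
  let D' : Module.End (ZMod 2) (LinearMap.range D) := D.restrict hinv
  have hD'k : ∀ (k : ℕ) (v : LinearMap.range D), ((D' ^ k) v : V) = (D ^ k) v := by
    intro k
    induction k with
    | zero => intro v; rfl
    | succ k ih =>
      intro v
      rw [pow_succ', pow_succ', Module.End.mul_apply, Module.End.mul_apply, ← ih]
      rfl
  have hD'E : D' ^ 2 ^ E = 0 := by
    ext v
    rw [hD'k, hDE]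
    rfl
  have hD'2 := S3508.pow_eq_zero_of_nilpotent D' (2 ^ E) hD'E 2 hrange
  have h1 : (D ^ 2) (D v) = 0 := by
    have h2 := hD'k 2 ⟨D v, LinearMap.mem_range_self D v⟩
    rw [hD'2] at h2
    exact h2.symm
  rw [pow_two, Module.End.mul_apply] at h1
  simp only [hD, smul_add] at h1
  have e1 := hself (g • g • v)
  have e2 := hself (g • v)
  calc g • g • g • v + g • g • v + g • v + v
      = (g • g • g • v + g • g • v + (g • g • v + g • v) + (g • g • v + g • v + (g • v + v)))
        - ((g • g • v + g • g • v) + (g • v + g • v)) := by abel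
    _ = 0 := by rw [h1, e1, e2]; simp

/-- the case of a `p`-element -/
theorem p_case {p : ℕ} (hp : p.Prime) (hexp : ∀ v : V, p • v = 0) (irr : Irr G V) {g : G} {b : V}
    {T : Equiv.Perm V} (hT : ∀ v, T v = g • v + b) {u w : V} (hcov : ∀ v, T.SameCycle u v ∨ T.SameCycle w v)
    (hne : ¬ T.SameCycle u w) {E : ℕ} (hE : T ^ p ^ E = 1) :
    ∃ a c : V, ∀ v : V, v ≠ 0 → Rel G a v ∨ Rel G c v := by
  classical
  have := Fintype.ofFinite V
  have hpr : Fact p.Prime := ⟨hp⟩
  -- cardinalities
  obtain ⟨d, hd⟩ : ∃ d, Nat.card V = p ^ d := by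
    let mod : Module (ZMod p) V := AddCommGroup.zmodModule hexp
    exact ⟨_, (FiniteField.pow_finrank_eq_natCard p V).symm⟩
  have hcyc : ∀ x, ∃ i, Function.minimalPeriod T x = p ^ i := by
    intro x
    have h1 : Function.IsPeriodicPt T (p ^ E) x := by
      change T^[p ^ E] x = x
      rw [← Equiv.Perm.coe_pow, hE]
      rfl
    obtain ⟨i, -, hi⟩ := (Nat.dvd_prime_pow hp).1 h1.minimalPeriod_dvd
    exact ⟨i, hi⟩
  obtain ⟨i, hi⟩ := hcyc u
  obtain ⟨j, hj⟩ := hcyc w
  have hsum : p ^ i + p ^ j = p ^ d := by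
    rw [← hi, ← hj, ← hd, ← card_cycle, ← card_cycle, ← Nat.card_sum]
    refine Nat.card_congr ?_
    refine (Equiv.sumCongr (Equiv.refl _) (Equiv.subtypeEquivRight fun v => ?_)).trans
      (Equiv.sumCompl (fun v => T.SameCycle u v))
    constructor
    · intro h1 h2
      exact hne (h2.trans h1.symm)
    · intro h1
      exact (hcov v).resolve_left h1
  obtain ⟨hp2, hji, hdi⟩ := pow_add_pow hp hsum
  subst hp2
  subst hji
  subst hdi
  have hord : orderOf T = 2 ^ j := by
    apply Nat.dvd_antisymm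
    · apply orderOf_dvd_of_pow_eq_one
      have hfix : ∀ x y, Function.minimalPeriod T x = 2 ^ j → T.SameCycle x y → (T ^ 2 ^ j) y = y := by
        rintro x y hx ⟨k, rfl⟩
        have h1 : (T ^ 2 ^ j) x = x := by
          rw [Equiv.Perm.coe_pow, ← hx]
          exact Function.isPeriodicPt_minimalPeriod T x
        rw [← Equiv.Perm.mul_apply, ← zpow_natCast, ← zpow_add, add_comm, zpow_add, Equiv.Perm.mul_apply, zpow_natCast,
          h1]
      ext y
      rcases hcov y with h | h
      · exact hfix u y hi h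
      · exact hfix w y hj h
    · rw [← hi]
      apply Function.IsPeriodicPt.minimalPeriod_dvd
      change T^[orderOf T] u = u
      rw [← Equiv.Perm.coe_pow, pow_orderOf_eq_one]
      rfl
  -- three classes
  by_contra hcon
  push Not at hcon
  obtain ⟨x, hx0, -, -⟩ := hcon 0 0
  obtain ⟨y, hy0, hxy, -⟩ := hcon x x
  obtain ⟨z, hz0, hxz, hyz⟩ := hcon x y
  have hdisj : ∀ a c : V, ¬ Rel G a c → Disjoint (orbit G a).toFinset (orbit G c).toFinset := by
    intro a c h
    rw [Finset.disjoint_left]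
    intro v hv hv'
    rw [Set.mem_toFinset] at hv hv'
    exact h (Rel.trans hv (Rel.symm hv'))
  have h0 : ∀ a : V, a ≠ 0 → (0 : V) ∉ orbit G a := by
    rintro a ha ⟨h, hh⟩
    exact Rel.ne_zero ⟨h, hh⟩ ha rfl
  have hcardsum : Nat.card (orbit G x) + Nat.card (orbit G y) + Nat.card (orbit G z) + 1 ≤ 2 ^ (j + 1) := by
    rw [← hd]
    simp only [Nat.card_eq_fintype_card, ← Set.toFinset_card]
    rw [← Finset.card_union_of_disjoint (hdisj x y hxy), ← Finset.card_union_of_disjoint, ← Finset.card_singleton (0 : V),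
      ← Finset.card_union_of_disjoint]
    · exact Finset.card_le_univ _
    · rw [Finset.disjoint_singleton_right, Finset.mem_union, Finset.mem_union, Set.mem_toFinset, Set.mem_toFinset,
        Set.mem_toFinset, not_or, not_or]
      exact ⟨⟨h0 x hx0, h0 y hy0⟩, h0 z hz0⟩
    · rw [Finset.disjoint_union_left]
      exact ⟨hdisj x z hxz, hdisj y z hyz⟩
  have hpos : ∀ a : V, 1 ≤ Nat.card (orbit G a) := by
    intro a
    have : Nonempty (orbit G a) := ⟨⟨a, mem_orbit_self a⟩⟩
    exact Nat.card_pos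
  rcases Nat.eq_zero_or_pos j with hj0 | hj0
  · rw [hj0] at hcardsum
    have := hpos x
    have := hpos y
    have := hpos z
    omega
  have h1 : 2 ^ (j - 1) ≤ j + 1 := (aff_order hp hexp hd T (fun v => g • v) (fun x y => smul_add g x y) b hT hj0 hord).1
  have hj4 : j ≤ 3 := by
    by_contra hcon
    have h2 : ∀ n : ℕ, n + 5 < 2 ^ (n + 3) := by
      intro n
      induction n with
      | zero => norm_num
      | succ n ih => rw [show n + 1 + 3 = (n + 3) + 1 by ring, pow_succ]; omega
    obtain ⟨n, rfl⟩ := Nat.exists_eq_add_of_le (show 4 ≤ j by omega)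
    have h3 := h2 n
    rw [show 4 + n - 1 = n + 3 by omega] at h1
    omega
  have hx5 := card_orbit_ge irr hexp (show 2 ≤ j + 1 by omega) hd hx0
  have hy5 := card_orbit_ge irr hexp (show 2 ≤ j + 1 by omega) hd hy0
  have hz5 := card_orbit_ge irr hexp (show 2 ≤ j + 1 by omega) hd hz0
  have hj3 : j = 3 := by
    interval_cases j
    · omega
    · omega
    · rfl
  subst hj3
  rw [show (2 : ℕ) ^ (3 + 1) = 16 by norm_num] at hcardsum
  -- fixed points
  have hgE : ∀ v : V, g ^ 2 ^ E • v = v := by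
    intro v
    have h2 := pow_aff hT (2 ^ E) v
    have h3 := pow_aff hT (2 ^ E) 0
    rw [hE] at h2
    change v = _ + 0 at h2
    rw [add_zero] at h2
    exact h2.symm
  have hfix : ∀ a : V, Nat.card (orbit G a) = 5 → ∃ a', Rel G a a' ∧ g • a' = a' := by
    intro a ha
    let σ : Equiv.Perm (orbit G a) := toPerm g
    have hσ : ∀ x : orbit G a, ((σ x : orbit G a) : V) = g • x.1 := fun x => rfl
    have hσk : ∀ (k : ℕ) (x : orbit G a), (((σ ^ k) x : orbit G a) : V) = g ^ k • x.1 := by
      intro k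
      induction k with
      | zero => intro x; simp
      | succ k ih => intro x; rw [pow_succ', Equiv.Perm.mul_apply, hσ, ih, pow_succ', mul_smul]
    have hσE : σ ^ 2 ^ E = 1 := by
      ext x
      rw [hσk, hgE]
      rfl
    have : Fact (Nat.Prime 2) := ⟨Nat.prime_two⟩
    obtain ⟨c, hc⟩ := Equiv.Perm.exists_fixed_point_of_prime (p := 2) (n := E)
      (by rw [← Nat.card_eq_fintype_card, ha]; norm_num) hσE
    exact ⟨c.1, c.2, congrArg Subtype.val hc⟩
  obtain ⟨x', hxx', hx'⟩ := hfix x (by omega)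
  obtain ⟨y', hyy', hy'⟩ := hfix y (by omega)
  obtain ⟨z', hzz', hz'⟩ := hfix z (by omega)
  have hcube := cube_zero hexp hd hgE hx' hy' hz' (hxx'.ne_zero hx0) (hyy'.ne_zero hy0) (hzz'.ne_zero hz0)
    (fun h => hxy (hxx'.trans (h ▸ hyy'.symm))) (fun h => hxz (hxx'.trans (h ▸ hzz'.symm)))
    (fun h => hyz (hyy'.trans (h ▸ hzz'.symm)))
  have hT4 : T ^ 4 = 1 := by
    have e0 : (T ^ 4) 0 = 0 := by
      have e1 : (T ^ 4) 0 = g • (g • (g • (g • 0 + b) + b) + b) + b := by
        rw [← hT, ← hT, ← hT, ← hT]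
        rfl
      rw [e1, smul_zero, zero_add]
      simp only [smul_add]
      exact hcube b
    ext v
    rw [pow_aff hT, e0, add_zero]
    have e2 := hcube v
    have e3 := hcube (g • v)
    have e4 : g ^ 4 • v = g • g • g • g • v := by
      rw [← mul_smul, ← mul_smul, ← mul_smul]
      congr 1
      simp [pow_succ, mul_assoc]
    rw [e4, Equiv.Perm.one_apply]
    have e5 : g • g • g • g • v - v = (g • g • g • g • v + g • g • g • v + g • g • v + g • v)
      - (g • g • g • v + g • g • v + g • v + v) := by abel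
    rw [e3, e2, sub_zero] at e5
    exact sub_eq_zero.1 e5
  have h2 := orderOf_dvd_of_pow_eq_one hT4
  rw [hord] at h2
  norm_num at h2

/-- **affine groups with an element with two cycles** -/
theorem aff_main {p : ℕ} (hp : p.Prime) (hexp : ∀ v : V, p • v = 0) (irr : Irr G V) {g : G} {b : V}
    {T : Equiv.Perm V} (hT : ∀ v, T v = g • v + b) {u w : V} (hcov : ∀ v, T.SameCycle u v ∨ T.SameCycle w v)
    (hne : ¬ T.SameCycle u w) :
    ∃ a c : V, ∀ v : V, v ≠ 0 → Rel G a v ∨ Rel G c v := by
  classical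
  obtain ⟨E, m, hm, hEm⟩ := Nat.exists_eq_pow_mul_and_not_dvd (orderOf_pos T).ne' p hp.ne_one
  have hTm : (T ^ p ^ E) ^ m = 1 := by
    rw [← pow_mul, ← hEm, pow_orderOf_eq_one]
  obtain ⟨c, hc⟩ := exists_fix hp hexp (T ^ p ^ E) (DistribSMul.toAddMonoidHom V (g ^ p ^ E)) ((T ^ p ^ E) 0)
    (fun v => pow_aff hT _ v) hTm hm
  let e : Equiv.Perm V := Equiv.addRight c
  let T' : Equiv.Perm V := e⁻¹ * T * e⁻¹⁻¹
  have he : ∀ v, e v = v + c := fun v => rfl
  have he' : ∀ v, e⁻¹ v = v - c := fun v => by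
    rw [Equiv.Perm.inv_eq_iff_eq, he, sub_add_cancel]
  have hT' : ∀ v, T' v = g • v + (g • c + b - c) := by
    intro v
    change e⁻¹ (T (e⁻¹⁻¹ v)) = _
    rw [inv_inv, he', he, hT, smul_add]
    abel
  have hsc : ∀ x y, T'.SameCycle x y ↔ T.SameCycle (x + c) (y + c) := by
    intro x y
    rw [Equiv.Perm.sameCycle_conj, inv_inv, he, he]
  have hT'k : ∀ k : ℕ, T' ^ k = e⁻¹ * T ^ k * e⁻¹⁻¹ := fun k => conj_pow
  have hcov' : ∀ v, T'.SameCycle (u - c) v ∨ T'.SameCycle (w - c) v := by
    intro v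
    rw [hsc, hsc, sub_add_cancel, sub_add_cancel]
    exact hcov _
  have hne' : ¬ T'.SameCycle (u - c) (w - c) := by
    rw [hsc, sub_add_cancel, sub_add_cancel]
    exact hne
  have h0 : (T' ^ p ^ E) 0 = 0 := by
    rw [hT'k]
    change e⁻¹ ((T ^ p ^ E) (e⁻¹⁻¹ 0)) = 0
    rw [inv_inv, he, zero_add, hc, he', sub_self]
  have hm' : (T' ^ p ^ E) ^ m = 1 := by
    rw [hT'k, conj_pow, hTm, mul_one, inv_inv, inv_mul_cancel]
  rcases norm_case hp hexp irr hT' hcov' hm hm' h0 with h | h
  · exact p_case hp hexp irr hT' hcov' hne' h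
  · exact h

end Cfsg.Agent.H549.TwoCyc
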