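import Cfsg.Agent.H549.TwoCyc.AffP

/-!
# Primitive groups of affine type with an element with two cycles (helper549, for S3507)
-/

set_option autoImplicit false
set_option linter.unusedSectionVars false

namespace Cfsg.Agent.H549.TwoCyc

open MulAction

universe u v

variable {G : Type u} {Ω : Type v} [Group G] [MulAction G Ω] [FaithfulSMul G Ω] [IsPreprimitive G Ω]

/-- non-trivial normal subgroups are transitive -/
theorem trans_of_normal (N : Subgroup G) [N.Normal] (hN : N ≠ ⊥) : IsPretransitive N Ω := by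
  apply IsQuasiPreprimitive.isPretransitive_of_normal (G := G)
  intro h
  apply hN
  rw [Subgroup.eq_bot_iff_forall]
  intro n hn
  apply FaithfulSMul.eq_of_smul_eq_smul (α := Ω) (M := G)
  intro x
  have h1 : x ∈ fixedPoints N Ω := h ▸ Set.mem_univ x
  rw [one_smul]
  exact h1 ⟨n, hn⟩

/-- abelian normal subgroups act freely -/
theorem free_of_ab (N : Subgroup G) [N.Normal] (hab : IsMulCommutative N) {n : N} {x : Ω} (h : n • x = x) :
    n = 1 := by
  by_cases hN : N = ⊥
  · have h1 : n.1 ∈ (⊥ : Subgroup G) := hN ▸ n.2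
    exact Subtype.ext (Subgroup.mem_bot.1 h1)
  have := trans_of_normal (Ω := Ω) N hN
  apply Subtype.ext
  apply FaithfulSMul.eq_of_smul_eq_smul (α := Ω) (M := G)
  intro y
  obtain ⟨k, rfl⟩ := exists_smul_eq N x y
  change n • (k • x) = (1 : G) • (k • x)
  rw [← mul_smul, mul_comm' n k, mul_smul, h, one_smul]

/-- the exponent is prime -/
theorem exists_exp [Finite G] [Nonempty Ω] (N : Subgroup G) [N.Normal] (hab : IsMulCommutative N) (hN : N ≠ ⊥) :
    ∃ p : ℕ, p.Prime ∧ ∀ n : N, n ^ p = 1 := by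
  have hcard : Nat.card N ≠ 1 := fun h => hN (Subgroup.eq_bot_of_card_eq N h)
  set p := (Nat.card N).minFac with hp
  have hpp : p.Prime := Nat.minFac_prime hcard
  have hpr : Fact p.Prime := ⟨hpp⟩
  refine ⟨p, hpp, ?_⟩
  have hmp : ∀ a b : N, (a * b) ^ p = a ^ p * b ^ p := fun a b =>
    Commute.mul_pow (show Commute a b from mul_comm' a b) p
  let M : Subgroup G :=
    { carrier := {x | ∃ h : x ∈ N, (⟨x, h⟩ : N) ^ p = 1}
      one_mem' := ⟨N.one_mem, one_pow p⟩
      mul_mem' := by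
        rintro x y ⟨hx, hx1⟩ ⟨hy, hy1⟩
        refine ⟨N.mul_mem hx hy, ?_⟩
        have h1 := hmp ⟨x, hx⟩ ⟨y, hy⟩
        rw [hx1, hy1, one_mul] at h1
        exact h1
      inv_mem' := by
        rintro x ⟨hx, hx1⟩
        refine ⟨N.inv_mem hx, ?_⟩
        have h1 : (⟨x⁻¹, N.inv_mem hx⟩ : N) = (⟨x, hx⟩ : N)⁻¹ := rfl
        rw [h1, inv_pow, hx1, inv_one] }
  have hMn : M.Normal := by
    refine ⟨?_⟩
    rintro x ⟨hx, hx1⟩ g
    refine ⟨Subgroup.Normal.conj_mem inferInstance x hx g, ?_⟩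
    apply Subtype.ext
    change (g * x * g⁻¹) ^ p = 1
    have h1 : x ^ p = 1 := congrArg Subtype.val hx1
    rw [conj_pow, h1, mul_one, mul_inv_cancel]
  have hMN : ∀ x ∈ M, x ∈ N := fun x hx => hx.1
  have hM0 : M ≠ ⊥ := by
    obtain ⟨x, hx⟩ := exists_prime_orderOf_dvd_card' (G := N) p (Nat.minFac_dvd _)
    intro h
    have h1 : x.1 ∈ M := ⟨x.2, by rw [← hx]; exact pow_orderOf_eq_one x⟩
    rw [h, Subgroup.mem_bot] at h1
    have h2 : x = 1 := Subtype.ext h1
    rw [h2, orderOf_one] at hx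
    exact hpp.ne_one hx.symm
  have := trans_of_normal (Ω := Ω) M hM0
  intro n
  obtain ⟨x₀⟩ := (inferInstance : Nonempty Ω)
  obtain ⟨k, hk⟩ := exists_smul_eq M x₀ (n • x₀)
  have h1 : (⟨k.1, hMN k.1 k.2⟩ : N)⁻¹ * n = 1 := by
    apply free_of_ab (Ω := Ω) N hab (x := x₀)
    rw [mul_smul, ← hk]
    exact inv_smul_smul k x₀
  have h2 : n = ⟨k.1, hMN k.1 k.2⟩ := (inv_mul_eq_one.1 h1).symm
  rw [h2]
  exact k.2.2

/-- **Affine type** -/
theorem affine_aux [Finite G] (N : Subgroup G) [N.Normal] (hab : IsMulCommutative N) (hN : N ≠ ⊥) (g : G)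
    (h2 : Nat.card (orbitRel.Quotient (Subgroup.zpowers g) Ω) = 2) :
    Nat.card (orbitRel.Quotient G (Ω × Ω)) ≤ 3 := by
  classical
  obtain ⟨q₁, q₂, hq, hqq⟩ := Nat.card_eq_two_iff.1 h2
  obtain ⟨o₁, rfl⟩ := Quotient.exists_rep q₁
  obtain ⟨o₂, rfl⟩ := Quotient.exists_rep q₂
  have hne : ∀ k : ℤ, g ^ k • o₁ ≠ o₂ := by
    intro k hk
    apply hq
    apply Quotient.sound
    exact MulAction.orbitRel_apply.2 (MulAction.mem_orbit_symm.1 ⟨⟨g ^ k, ⟨k, rfl⟩⟩, hk⟩)
  have hcov : ∀ x : Ω, (∃ k : ℤ, g ^ k • o₁ = x) ∨ ∃ k : ℤ, g ^ k • o₂ = x := by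
    intro x
    have h3 : (⟦x⟧ : orbitRel.Quotient (Subgroup.zpowers g) Ω) ∈
        ({⟦o₁⟧, ⟦o₂⟧} : Set (orbitRel.Quotient (Subgroup.zpowers g) Ω)) := hqq ▸ Set.mem_univ _
    rcases h3 with h3 | h3
    · left
      obtain ⟨⟨t, k, rfl⟩, hk⟩ := MulAction.orbitRel_apply.1 (Quotient.exact h3)
      exact ⟨k, hk⟩
    · right
      obtain ⟨⟨t, k, rfl⟩, hk⟩ := MulAction.orbitRel_apply.1 (Quotient.exact h3)
      exact ⟨k, hk⟩
  have : Nonempty Ω := ⟨o₁⟩
  obtain ⟨p, hp, hexp⟩ := exists_exp (Ω := Ω) N hab hN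
  let cg : CommGroup N := { (inferInstance : Group N) with mul_comm := fun a b => mul_comm' a b }
  let act : DistribMulAction G (Additive N) :=
    { smul := fun h v => Additive.ofMul (MulAut.conjNormal h v.toMul)
      one_smul := fun v => by
        change Additive.ofMul (MulAut.conjNormal 1 v.toMul) = v
        rw [map_one]
        rfl
      mul_smul := fun a b v => by
        change Additive.ofMul (MulAut.conjNormal (a * b) v.toMul) = _
        rw [map_mul]
        rfl
      smul_zero := fun a => by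
        change Additive.ofMul (MulAut.conjNormal a (1 : N)) = 0
        rw [map_one]
        rfl
      smul_add := fun a v w => by
        change Additive.ofMul (MulAut.conjNormal a (v.toMul * w.toMul)) = _
        rw [map_mul]
        rfl }
  have hact : ∀ (h : G) (v : Additive N), (((h • v).toMul : N) : G) = h * v.toMul * h⁻¹ := by
    intro h v
    exact MulAut.conjNormal_apply h v.toMul
  have htrans := trans_of_normal (Ω := Ω) N hN
  let e : Additive N ≃ Ω := Equiv.ofBijective (fun v => v.toMul • o₁) ⟨by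
    intro v w hvw
    have h3 : (w.toMul⁻¹ * v.toMul) = 1 := by
      apply free_of_ab (Ω := Ω) N hab (x := o₁)
      have h4 : v.toMul • o₁ = w.toMul • o₁ := hvw
      rw [mul_smul, h4, inv_smul_smul]
    exact (inv_mul_eq_one.1 h3).symm, by
    intro y
    obtain ⟨n, hn⟩ := exists_smul_eq N o₁ y
    exact ⟨Additive.ofMul n, hn⟩⟩
  have he : ∀ v, e v = (v.toMul : G) • o₁ := fun v => rfl
  have hsm : ∀ (h : G) (v : Additive N) (x : Ω), h • ((v.toMul : G) • x) = (((h • v).toMul : N) : G) • h • x := by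
    intro h v x
    rw [hact, ← mul_smul, ← mul_smul, inv_mul_cancel_right]
  let φ : G →* Equiv.Perm (Additive N) := (e.symm.permCongrHom).toMonoidHom.comp (toPermHom G Ω)
  have hφ : ∀ (h : G) (v : Additive N), e (φ h v) = h • e v := by
    intro h v
    change e (e.symm (h • e.symm.symm v)) = _
    rw [Equiv.apply_symm_apply, Equiv.symm_symm]
  have irr : Irr G (Additive N) := by
    intro W hW
    let M : Subgroup G :=
      { carrier := {x | ∃ h : x ∈ N, Additive.ofMul (⟨x, h⟩ : N) ∈ W}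
        one_mem' := ⟨N.one_mem, W.zero_mem⟩
        mul_mem' := by
          rintro x y ⟨hx, hx1⟩ ⟨hy, hy1⟩
          exact ⟨N.mul_mem hx hy, W.add_mem hx1 hy1⟩
        inv_mem' := by
          rintro x ⟨hx, hx1⟩
          exact ⟨N.inv_mem hx, W.neg_mem hx1⟩ }
    have hMn : M.Normal := by
      refine ⟨?_⟩
      rintro x ⟨hx, hx1⟩ h
      refine ⟨Subgroup.Normal.conj_mem inferInstance x hx h, ?_⟩
      have h3 := hW h _ hx1
      have h4 : h • Additive.ofMul (⟨x, hx⟩ : N) =
          Additive.ofMul (⟨h * x * h⁻¹, Subgroup.Normal.conj_mem inferInstance x hx h⟩ : N) := by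
        apply Additive.toMul.injective
        apply Subtype.ext
        exact hact h _
      rwa [h4] at h3
    by_cases hM : M = ⊥
    · left
      rw [AddSubgroup.eq_bot_iff_forall]
      intro v hv
      have h3 : (v.toMul : G) ∈ M := ⟨v.toMul.2, hv⟩
      rw [hM, Subgroup.mem_bot] at h3
      apply Additive.toMul.injective
      exact Subtype.ext h3
    · right
      have := trans_of_normal (Ω := Ω) M hM
      rw [eq_top_iff]
      intro v _
      obtain ⟨k, hk⟩ := exists_smul_eq M o₁ (e v)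
      obtain ⟨hk1, hk2⟩ := k.2
      have h3 : e (Additive.ofMul ⟨k.1, hk1⟩) = e v := hk
      rw [← e.injective h3]
      exact hk2
  obtain ⟨a, c, hac⟩ := aff_main (V := Additive N) (G := G) hp (fun v => hexp v.toMul) irr (g := g)
    (b := e.symm (g • o₁)) (T := φ g) (fun v => by
      apply e.injective
      rw [hφ, he, hsm, he]
      change _ = ((((g • v).toMul * (e.symm (g • o₁)).toMul : N)) : G) • o₁
      rw [Subgroup.coe_mul, mul_smul, ← he (e.symm (g • o₁)), Equiv.apply_symm_apply])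
    (u := e.symm o₁) (w := e.symm o₂) (fun v => by
      rcases hcov (e v) with ⟨k, hk⟩ | ⟨k, hk⟩
      · left
        refine ⟨k, ?_⟩
        rw [← map_zpow]
        apply e.injective
        rw [hφ, Equiv.apply_symm_apply, hk]
      · right
        refine ⟨k, ?_⟩
        rw [← map_zpow]
        apply e.injective
        rw [hφ, Equiv.apply_symm_apply, hk]) (by
    rintro ⟨k, hk⟩
    rw [← map_zpow] at hk
    apply hne k
    have h3 := congrArg e hk
    rwa [hφ, Equiv.apply_symm_apply, Equiv.apply_symm_apply] at h3)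
  -- the rank
  let f : Fin 3 → orbitRel.Quotient G (Ω × Ω) := ![⟦(o₁, o₁)⟧, ⟦(o₁, e a)⟧, ⟦(o₁, e c)⟧]
  have hrel : ∀ v w : Additive N, Rel G v w →
      (⟦(o₁, e v)⟧ : orbitRel.Quotient G (Ω × Ω)) = ⟦(o₁, e w)⟧ := by
    rintro v w ⟨h, rfl⟩
    obtain ⟨n, hn⟩ := exists_smul_eq N (h • o₁) o₁
    apply Quotient.sound
    refine MulAction.orbitRel_apply.2 (MulAction.mem_orbit_symm.1 ⟨n.1 * h, ?_⟩)
    change ((n.1 * h) • o₁, (n.1 * h) • e v) = _
    have h3 : (n.1 * h) • o₁ = o₁ := by rw [mul_smul]; exact hn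
    have h4 : (n.1 * h) • e v = e (h • v) := by
      rw [mul_smul, he, hsm, he, ← mul_smul]
      have h5 : (n.1 : G) * (((h • v).toMul : N) : G) = (((h • v).toMul : N) : G) * n.1 := by
        rw [← Subgroup.coe_mul, mul_comm', Subgroup.coe_mul]
      rw [h5, mul_smul]
      congr 1
    rw [h3, h4]
  have hf : Function.Surjective f := by
    intro q
    obtain ⟨⟨x, y⟩, rfl⟩ := Quotient.exists_rep q
    obtain ⟨n, hn⟩ := exists_smul_eq N x o₁
    have h3 : (⟦(x, y)⟧ : orbitRel.Quotient G (Ω × Ω)) = ⟦(o₁, e (e.symm (n • y)))⟧ := by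
      rw [Equiv.apply_symm_apply]
      apply Quotient.sound
      refine MulAction.orbitRel_apply.2 (MulAction.mem_orbit_symm.1 ⟨n.1, ?_⟩)
      change (n • x, n • y) = _
      rw [hn]
    rw [h3]
    by_cases h0 : e.symm (n • y) = 0
    · refine ⟨0, ?_⟩
      rw [h0, he]
      change ⟦(o₁, o₁)⟧ = ⟦(o₁, (1 : G) • o₁)⟧
      rw [one_smul]
    · rcases hac _ h0 with h4 | h4
      · exact ⟨1, hrel _ _ h4⟩
      · exact ⟨2, hrel _ _ h4⟩
  have h3 := Nat.card_le_card_of_surjective f hf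
  rwa [Nat.card_fin] at h3

end Cfsg.Agent.H549.TwoCyc
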